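import Mathlib
import Cfsg.Agent.Lib.ClPres.CMain

/-!
Tools for generation by two elements; the special linear groups.
-/

set_option autoImplicit false

namespace CfsgLib.TwoGen

open CfsgLib.ClPres CfsgLib.ClSys Subgroup Function Matrix Matrix.SpecialLinearGroup
open scoped commutatorElement

variable {F : Type*} [Field F] {G : Type*} [Group G] {K : Subgroup G}

/-- all elements of the family lie in `K` -/
def Fu (K : Subgroup G) (x : F → G) : Prop := ∀ t, x t ∈ K

/-- some element of the family with nonzero parameter lies in `K` -/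
def Pt (K : Subgroup G) (x : F → G) : Prop := ∃ t, t ≠ 0 ∧ x t ∈ K

theorem mem_iff_of_conj {g a b : G} (hg : g ∈ K) (e : g * a * g⁻¹ = b) : a ∈ K ↔ b ∈ K := by
  rw [← e, K.mul_mem_cancel_right (inv_mem hg), K.mul_mem_cancel_left hg]

theorem fu_iff_of_conj {x x' : F → G} {g : G} (hg : g ∈ K) {c : F} (hc : c ≠ 0) (e : ∀ t, g * x t * g⁻¹ = x' (c * t)) :
    Fu K x ↔ Fu K x' :=
  ⟨fun h t => mul_inv_cancel_left₀ hc t ▸ (mem_iff_of_conj hg (e _)).1 (h _), fun h t =>
    (mem_iff_of_conj hg (e t)).2 (h _)⟩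

theorem pt_iff_of_conj {x x' : F → G} {g : G} (hg : g ∈ K) {c : F} (hc : c ≠ 0) (e : ∀ t, g * x t * g⁻¹ = x' (c * t)) :
    Pt K x ↔ Pt K x' :=
  ⟨fun ⟨t, ht, h⟩ => ⟨_, mul_ne_zero hc ht, (mem_iff_of_conj hg (e t)).1 h⟩, fun ⟨t, ht, h⟩ =>
    ⟨_, mul_ne_zero (inv_ne_zero hc) ht, (mem_iff_of_conj hg (e _)).2 (by rwa [mul_inv_cancel_left₀ hc])⟩⟩

theorem Pt.fu [Finite F] {ζ : F} (hζ : ∀ t : F, t ≠ 0 → ∃ i : ℕ, ζ ^ i = t) {x : F → G} (hx : IsAdd x) (h : Pt K x)
    {g : G} (hg : g ∈ K) {c : F} (ha : Acts g x c) (hc : c = ζ ∨ c = ζ ^ 2) : Fu K x := by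
  obtain ⟨t, ht, h⟩ := h
  obtain ⟨g', hg', ha'⟩ : ∃ g' ∈ K, Acts g' x (ζ ^ 2) := by
    rcases hc with rfl | rfl
    exacts [⟨_, pow_mem hg 2, ha.pow 2⟩, ⟨g, hg, ha⟩]
  refine hx.mem_of_sq ht fun s hs => ?_
  obtain ⟨a, rfl⟩ := hζ s hs
  rw [← pow_mul, mul_comm a, pow_mul, mul_comm]
  exact (mem_iff_of_conj (pow_mem hg' a) (ha'.pow a t)).1 h

theorem Pt.fu_of_le_three [Fintype F] (hF : Fintype.card F ≤ 3) {x : F → G} (hx : IsAdd x) (h : Pt K x) : Fu K x := by
  obtain ⟨t, ht, h⟩ := h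
  refine hx.mem_of_sq ht fun s hs => ?_
  have h1 := FiniteField.pow_card_sub_one_eq_one s hs
  have h2 : 1 < Fintype.card F := Fintype.one_lt_card
  have h3 : s ^ 2 = 1 := by
    rcases (by omega : Fintype.card F - 1 = 1 ∨ Fintype.card F - 1 = 2) with e | e <;> rw [e] at h1
    exacts [by rw [pow_one] at h1; rw [h1, one_pow], h1]
  rwa [h3, mul_one]

theorem mem_of_mul_mem {a u : G} (hc : Commute a u) {p k : ℕ} (hp : a ^ p = 1) (hk : u ^ k = 1) (h : p.Coprime k)
    (hm : a * u ∈ K) : a ∈ K ∧ u ∈ K := by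
  have h1 : a ^ k ∈ K := by simpa [hc.mul_pow, hk] using pow_mem hm k
  obtain ⟨m, hm'⟩ := exists_pow_eq_self_of_coprime (x := a) (h.symm.coprime_dvd_right (orderOf_dvd_of_pow_eq_one hp))
  have h2 : a ∈ K := hm' ▸ pow_mem h1 m
  exact ⟨h2, (K.mul_mem_cancel_left h2).1 hm⟩

theorem IsAdd.pow_ringChar {x : F → G} (hx : IsAdd x) (t : F) : x t ^ ringChar F = 1 := by
  have : ∀ k : ℕ, x t ^ k = x (k * t) := fun k => by
    induction k with
    | zero => simp [hx.zero]
    | succ k ih => rw [pow_succ, ih, ← hx, Nat.cast_succ, add_mul, one_mul]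
  rw [this, ringChar.Nat.cast_ringChar, zero_mul, hx.zero]

theorem coprime_ringChar [Fintype F] : (ringChar F).Coprime (Fintype.card F - 1) := by
  obtain ⟨n, hp, h⟩ := FiniteField.card F (ringChar F)
  refine hp.coprime_iff_not_dvd.2 fun hd => hp.not_dvd_one ?_
  have h1 : ringChar F ∣ Fintype.card F := h ▸ dvd_pow_self _ n.ne_zero
  have := Nat.dvd_sub h1 hd
  rwa [Nat.sub_sub_self Fintype.card_pos] at this

theorem gen_sq_ne_one [Fintype F] {ζ : F} (hζ : ∀ t : F, t ≠ 0 → ∃ i : ℕ, ζ ^ i = t) {k : ℕ} (hk : 0 < k)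
    (hF : k + 1 < Fintype.card F) : ζ ^ k ≠ 1 := fun h => by
  classical
  have : (Finset.univ.erase (0 : F)).card ≤ ((Finset.range k).image (ζ ^ ·)).card := Finset.card_le_card fun t ht => by
    obtain ⟨i, rfl⟩ := hζ t (Finset.ne_of_mem_erase ht)
    exact Finset.mem_image.2 ⟨i % k, Finset.mem_range.2 (Nat.mod_lt _ hk), (pow_eq_pow_mod i h).symm⟩
  have h2 := this.trans Finset.card_image_le
  rw [Finset.card_erase_of_mem (Finset.mem_univ _), Finset.card_univ, Finset.card_range] at h2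
  omega

theorem steinberg_trick {y : F → G} (hy : IsAdd y) {h h' : G} {a a' : F} (h1 : Acts h y a) (h2 : Acts h' y a')
    (hc : Commute h h') (m1 : h ∈ K) (m2 : y 1 * h' * (y 1)⁻¹ ∈ K) : y ((a - 1) * (1 - a')) ∈ K := by
  have e : y 1 * h' * (y 1)⁻¹ = y (1 - a') * h' := by
    rw [← hy.neg, sub_eq_add_neg, hy, ← mul_neg_one a', ← h2]; group
  have := mul_mem (mul_mem (mul_mem m1 m2) (inv_mem m1)) (inv_mem m2)
  rwa [e, ← mul_assoc, mul_assoc _ h', hc.inv_left.symm.eq, ← mul_assoc, h1, _root_.mul_inv_rev, ← mul_assoc,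
    mul_inv_cancel_right, ← hy.neg, ← hy, show a * (1 - a') + -(1 - a') = (a - 1) * (1 - a') by ring] at this

theorem conj_mul' (a b c : G) : a * (b * c * b⁻¹) * a⁻¹ = a * b * c * (a * b)⁻¹ := by group

theorem genBy_pair (a b : G) : GenBy (closure {a, b}) 2 := ⟨[a, b], le_rfl, by congr 1; ext; simp⟩

theorem exists_pair_of_genBy (h : GenBy (⊤ : Subgroup G) 2) : ∃ a b : G, closure {a, b} = ⊤ := by
  obtain ⟨L, h1, h2⟩ := h
  match L, h1, h2 with
  | [], _, h2 => exact ⟨1, 1, eq_top_iff.2 (h2.ge.trans (closure_mono (by simp)))⟩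
  | [a], _, h2 => exact ⟨a, a, eq_top_iff.2 (h2.ge.trans (closure_mono (by simp)))⟩
  | [a, b], _, h2 => exact ⟨a, b, eq_top_iff.2 (h2.ge.trans (closure_mono fun x => by simp))⟩

theorem genBy_quot {N : Subgroup G} [N.Normal] {s : ℕ} (h : GenBy (⊤ : Subgroup G) s) :
    GenBy (⊤ : Subgroup (G ⧸ N)) s :=
  map_top_of_surjective _ (QuotientGroup.mk'_surjective N) ▸ h.map (QuotientGroup.mk' N)

section SL

variable {n : ℕ}

theorem sl_eq_top_of_cyc (hn : 1 ≤ n) {K : Subgroup (SpecialLinearGroup (Fin (n + 1)) F)}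
    {w : SpecialLinearGroup (Fin (n + 1)) F} (hw : w ∈ K) {l : Fin (n + 1) → F} (h : IsMono w.1 (finRotate _).symm l)
    (hl : ∀ i, l i ≠ 0) (h0 : Fu K (tv F 0 1)) : K = ⊤ := by
  have h1 : ∀ i, Fu K (tv F i (i + 1)) := fun i => by
    induction i using Fin.induction with
    | zero => simpa using h0
    | succ i ih =>
      refine (fu_iff_of_conj hw (mul_ne_zero (hl _) (inv_ne_zero (hl _))) (conj_tv h hl _ _)).2 ?_
      rwa [← Fin.coeSucc_eq_succ, ← finRotate_apply, ← finRotate_apply, Equiv.symm_apply_apply, Equiv.symm_apply_apply,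
        finRotate_apply]
  have h2 : ∀ d : Fin (n + 1), d ≠ 0 → ∀ i, Fu K (tv F i (i + d)) := fun d => by
    induction d using Fin.induction with
    | zero => simp
    | succ d ih =>
      intro hd i t
      rw [← Fin.coeSucc_eq_succ] at hd ⊢
      by_cases e : d.castSucc = 0
      · simpa [e] using h1 i t
      · rw [← mul_one t, ← add_assoc, ← tv_chain (j := i + d.castSucc) (by simpa using e)
          (by simpa [add_assoc] using hd) (by simp; omega)]
        exact mul_mem (mul_mem (mul_mem (ih e i _) (h1 _ _)) (inv_mem (ih e i _))) (inv_mem (h1 _ _))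
  exact eq_top_of_tv fun i j hij t => by simpa using h2 (j - i) (sub_ne_zero.2 hij.symm) i t

theorem isMono_cyc {w : Matrix (Fin (n + 1)) (Fin (n + 1)) F}
    (hw : w = Matrix.of fun i j => if j.val = i.val + 1 then 1 else if i.val = n ∧ j.val = 0 then (-1) ^ n else 0) :
    IsMono w (finRotate _).symm fun j => if j.val = 0 then (-1) ^ n else 1 := fun a b => by
  have := a.2
  simp only [hw, of_apply, Equiv.eq_symm_apply, Fin.ext_iff, coe_finRotate, Fin.val_last]
  split_ifs <;> first | rfl | omega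

theorem sl_small [Fintype F] (hF : Fintype.card F ≤ 3) (hn : 1 ≤ n) {x w : SpecialLinearGroup (Fin (n + 1)) F}
    (hx : x.1 = Matrix.transvection 0 1 1)
    (hw : w.1 = Matrix.of fun i j => if j.val = i.val + 1 then 1 else if i.val = n ∧ j.val = 0 then (-1) ^ n else 0) :
    closure {x, w} = ⊤ := by
  have h01 : (0 : Fin (n + 1)) ≠ 1 := by simp; omega
  refine sl_eq_top_of_cyc hn (subset_closure (by simp)) (isMono_cyc hw) (fun i => by split_ifs <;> simp)
    (Pt.fu_of_le_three hF (isAdd_tv _ _) ⟨1, one_ne_zero, subset_closure ?_⟩)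
  exact Or.inl (Subtype.ext (by rw [tv_eq h01, hx]; rfl))

theorem sl_large [Fintype F] (hF : 3 < Fintype.card F) (hn : 1 ≤ n) {ζ : F} (h0 : ζ ≠ 0)
    (hζ : ∀ t : F, t ≠ 0 → ∃ i : ℕ, ζ ^ i = t) {x w : SpecialLinearGroup (Fin (n + 1)) F}
    (hx : x.1 = Matrix.transvection 0 1 1)
    (hw : w.1 = Matrix.of fun i j => if j.val = i.val + 1 then 1 else if i.val = n ∧ j.val = 0 then (-1) ^ n else 0) :
    closure {hd h0 0 1, x * w} = ⊤ := by
  have h01 : (0 : Fin (n + 1)) ≠ 1 := by simp; omega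
  obtain rfl : x = tv F 0 1 1 := Subtype.ext (by rw [tv_eq h01, hx]; rfl)
  set K := closure {hd h0 0 1, tv F 0 1 1 * w}
  have m1 : hd h0 0 1 ∈ K := subset_closure (by simp)
  have m2 : tv F 0 1 1 * w ∈ K := subset_closure (by simp)
  have h2 := gen_sq_ne_one hζ two_pos hF
  have a1 := (slData_tv h0).h2 _ _ h01
  have e0 : (finRotate (n + 1)).symm 0 = Fin.last n := by rw [Equiv.symm_apply_eq, finRotate_last]
  have e1 : (finRotate (n + 1)).symm 1 = 0 := by simp
  have hl : Fin.last n ≠ 0 := by simp; omega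
  have k := steinberg_trick (isAdd_tv 0 1) a1 (conj_tv (isMono_hd h0 hl) (fun a => by split_ifs <;> simp [h0]) 0 1)
    (commute_hd h0 _ _ _ _) m1 (by
      have := mul_mem (mul_mem m2 m1) (inv_mem m2)
      rwa [← conj_mul', conj_hd (isMono_cyc hw), e0, e1] at this)
  have hf := Pt.fu hζ (isAdd_tv 0 1) ⟨_, mul_ne_zero (sub_ne_zero.2 h2) (sub_ne_zero.2 fun e => h2 ?_), k⟩ m1 a1
    (Or.inr rfl)
  · exact sl_eq_top_of_cyc hn ((K.mul_mem_cancel_left (hf 1)).1 m2) (isMono_cyc hw) (fun i => by split_ifs <;> simp) hf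
  · rw [if_neg hl.symm, if_pos rfl, if_neg h01.symm, ← mul_inv, eq_comm, inv_eq_one] at e
    split_ifs at e
    exacts [sq ζ ▸ e, by rw [mul_one] at e; rw [e, one_pow]]

theorem exists_cyc (n : ℕ) : ∃ w : SpecialLinearGroup (Fin (n + 1)) F,
    w.1 = Matrix.of fun i j => if j.val = i.val + 1 then 1 else if i.val = n ∧ j.val = 0 then (-1) ^ n else 0 := by
  refine ⟨⟨_, ?_⟩, rfl⟩
  rw [show (Matrix.of _ : Matrix _ _ F) = (finRotate (n + 1)).permMatrix F *
    diagonal fun j => if j.val = 0 then (-1) ^ n else 1 from ?_, det_mul, det_permutation, det_diagonal, sign_finRotate,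
    Fin.prod_univ_succ]
  · simp [← mul_pow]
  · ext a b
    rw [isMono_cyc rfl a b, mul_diagonal]
    simp only [Equiv.eq_symm_apply, Equiv.Perm.permMatrix, PEquiv.toMatrix_apply, Equiv.toPEquiv_apply, Option.mem_def,
      Option.some.injEq, ite_mul, one_mul, zero_mul]

theorem genBy_sl [Finite F] (hn : 2 ≤ n) : GenBy (⊤ : Subgroup (SpecialLinearGroup (Fin n) F)) 2 := by
  obtain ⟨n, rfl⟩ : ∃ k, n = k + 1 := ⟨n - 1, by omega⟩
  have := Fintype.ofFinite F
  obtain ⟨w, hw⟩ := exists_cyc (F := F) n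
  obtain ⟨ζ, h0, hζ⟩ := exists_generator (F := F)
  have h01 : (0 : Fin (n + 1)) ≠ 1 := by simp; omega
  rcases le_or_gt (Fintype.card F) 3 with h | h
  · exact sl_small h (by omega) (x := transvection h01 1) rfl hw ▸ genBy_pair _ _
  · exact sl_large h (by omega) h0 hζ (x := transvection h01 1) rfl hw ▸ genBy_pair _ _

end SL

theorem pres_two {d r : ℕ} (h : CfsgLib.Pres.Pres G d r) (h2 : GenBy (⊤ : Subgroup G) 2) :
    CfsgLib.Pres.Pres G 2 (r + 2) :=
  let ⟨_, _, e⟩ := exists_pair_of_genBy h2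
  h.change_two e

end CfsgLib.TwoGen
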