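import Mathlib
import Cfsg.Agent.Lib.TwoGen.Basic
import Cfsg.Agent.Lib.RGD.Levi

/-!
Monomial elements and Coxeter elements for the matrix groups of types `B`, `C`, `D`.
-/

set_option autoImplicit false

namespace CfsgLib.TwoGen

open CfsgLib.ClPres CfsgLib.ClSys CfsgLib.RGD Subgroup Function Matrix Sum

section Gen

variable {F : Type*} [Field F] {G : Type*} [Group G] {K : Subgroup G}

/-- conjugation by an element of `K` carries one family to the other -/
def Cj (K : Subgroup G) (x x' : F → G) : Prop := ∃ g ∈ K, ∃ c, c ≠ 0 ∧ ∀ t, g * x t * g⁻¹ = x' (c * t)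

theorem Cj.fu {x x' : F → G} (h : Cj K x x') : Fu K x ↔ Fu K x' :=
  let ⟨_, hg, _, hc, e⟩ := h
  fu_iff_of_conj hg hc e

theorem Cj.pt {x x' : F → G} (h : Cj K x x') : Pt K x ↔ Pt K x' :=
  let ⟨_, hg, _, hc, e⟩ := h
  pt_iff_of_conj hg hc e

theorem mem_of_chain {a b c : G} (e : a * b = c * (b * a)) (ha : a ∈ K) (hb : b ∈ K) : c ∈ K :=
  (K.mul_mem_cancel_right (mul_mem hb ha)).1 (e ▸ mul_mem ha hb)

theorem grp_le_of_simple {ι κ : Type} [Fintype κ] [DecidableEq κ] {Φ : RootSys ι κ} (S : StSys Φ F G)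
    (h : ∀ j, Fu K (S.x (Φ.simple j)) ∧ Fu K (S.x (Φ.neg (Φ.simple j)))) : S.grp ≤ K := by
  refine (S.UU_mono fun r _ => Φ.inSub_univ r).trans ((S.UU_simple_eq _).ge.trans (S.UU_le_iff.2 ?_))
  rintro r ⟨i, -, rfl | rfl⟩
  exacts [(h i).1, (h i).2]

theorem genBy_of_forall {H : Subgroup G} {a b : G} (ha : a ∈ H) (hb : b ∈ H) (h : ∀ K : Subgroup G, a ∈ K → b ∈ K → H ≤ K) :
    GenBy H 2 :=
  le_antisymm ((closure_le _).2 (Set.pair_subset ha hb)) (h _ (subset_closure (by simp)) (subset_closure (by simp))) ▸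
    genBy_pair a b

end Gen

variable {m : ℕ} {F : Type*} [Field F] {J : Type*} [Fintype J] [DecidableEq J] {ι : II m ↪ J} {e : F}
  {K : Subgroup (SpecialLinearGroup J F)} {a b d : II m} {π ρ : sperm m}

variable (ι e) in
/-- the root elements of `ε_a + ε_b` as a total function -/
def md (a b : II m) (t : F) : SpecialLinearGroup J F := if h : a ≠ b.swap then mid ι e a b h t else 1

theorem md_eq (h : a ≠ b.swap) : md ι e a b = mid ι e a b h := funext fun _ => dif_pos h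

theorem fu_xM {r : MidR m} (h : Fu K (md ι e r.1.1 r.1.2)) : Fu K (xM ι e r) := by rwa [md_eq r.ne_swap] at h

theorem isAdd_md (a b : II m) : IsAdd (md ι e a b) := fun s t => by
  by_cases h : a ≠ b.swap
  · rw [md_eq h, mid_add]
  · simp only [md, dif_neg h, one_mul]

theorem fu_md_symm (he : e * e = 1) (h : Fu K (md ι e a b)) : Fu K (md ι e b a) := fun t => by
  by_cases h' : b ≠ a.swap
  · have h'' : a ≠ b.swap := fun e => h' (eq_swap_comm.1 e)
    rw [md_eq h', mid_symm ι he _ _ _ h'', ← md_eq]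
    exact h _
  · simp only [md, dif_neg h', one_mem]

theorem md_chain (he : e * e = 1) (h : Dist a b) (h' : Dist b d) (h2 : a ≠ d.swap) (t u : F) :
    md ι e a b t * md ι e b.swap d u = md ι e a d (t * u) * (md ι e b.swap d u * md ι e a b t) := by
  rw [md_eq h.2, md_eq h2, md_eq (swap_inj.ne.2 h'.1), mid_mid_chain ι he _ _ h.1 _ h'.2]

theorem fu_md_chain (he : e * e = 1) (h : Dist a b) (h' : Dist b d) (h2 : a ≠ d.swap) (h3 : Fu K (md ι e a b))
    (h4 : Fu K (md ι e b.swap d)) : Fu K (md ι e a d) := fun t =>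
  mul_one t ▸ mem_of_chain (md_chain he h h' h2 t 1) (h3 _) (h4 _)

theorem md_commute {c : II m} (h1 : a ≠ c.swap) (h2 : a ≠ d.swap) (h3 : b ≠ c.swap) (h4 : b ≠ d.swap) (t u : F) :
    Commute (md ι e a b t) (md ι e c d u) := by
  unfold md
  split_ifs
  exacts [mid_mid_commute ι _ _ h1 h2 h3 h4 t u, .one_right _, .one_left _, .one_left _]

theorem md_cube (he : e * e = 1) (h2 : (2 : F) = 0) (h : Dist a b) :
    (md ι e a b 1 * md ι e b.swap a.swap 1) ^ 3 = 1 := by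
  obtain rfl : e = 1 := by simpa [sub_eq_zero] using show (e - 1) ^ 2 = 0 by linear_combination he + (1 - e) * h2
  have h1 (a b) : md ι (1 : F) a b 1 * md ι 1 a b 1 = 1 := by rw [← isAdd_md, one_add_one_eq_two, h2, (isAdd_md a b).zero]
  have h3 : md ι (1 : F) a b 1 * md ι 1 b.swap a.swap 1 * md ι 1 a b 1 =
      md ι (1 : F) b.swap a.swap 1 * md ι 1 a b 1 * md ι 1 b.swap a.swap 1 := by
    have := key_bound a; have := key_bound b; have := dist_iff.1 h
    rw [md_eq h.2, md_eq h.symm.swap.symm.swap.symm.2]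
    apply Subtype.ext
    simp (disch := ((try simp only [key_swap]); omega)) only [Matrix.SpecialLinearGroup.coe_mul, mid_coe, mul_add, add_mul,
      mul_one, one_mul, smul_mul_assoc, mul_smul_comm, EE_mul_key ι, EE_mul_same, Sum.swap_swap, smul_zero, add_zero, sg_one]
    match_scalars <;> first | ring1 | linear_combination h2 | linear_combination -h2
  calc _ = md ι (1 : F) a b 1 * md ι 1 b.swap a.swap 1 * md ι 1 a b 1 *
      (md ι (1 : F) b.swap a.swap 1 * md ι 1 a b 1 * md ι 1 b.swap a.swap 1) := by simp only [pow_three, mul_assoc]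
    _ = 1 := by
      rw [← h3]; simp only [mul_assoc]; rw [← mul_assoc (md _ _ a b 1) (md _ _ a b 1), h1, one_mul, ← mul_assoc (md _ _ b.swap _ 1), h1,
        one_mul, h1]

theorem IsTor.acts_md {g : SpecialLinearGroup J F} {γ : Fin m → ℤ} {c : F} (h : IsTor ι g γ c) (hc : c ≠ 0)
    (he : e * e = 1) (a b : II m) : Acts g (md ι e a b) (c ^ (γ ⬝ᵥ (eps a + eps b))) := fun t => by
  by_cases h' : a ≠ b.swap
  · rw [md_eq h', h.conj_mid hc he]
  · simp only [md, dif_neg h', mul_one, mul_inv_cancel]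

theorem IsTor.add {g g' : SpecialLinearGroup J F} {γ γ' : Fin m → ℤ} {c : F} (hc : c ≠ 0) (h : IsTor ι g γ c)
    (h' : IsTor ι g' γ' c) : IsTor ι (g * g') (γ + γ') c := by
  obtain ⟨d, h1, h2, h3⟩ := h
  obtain ⟨d', h1', h2', h3'⟩ := h'
  exact ⟨fun k => d k * d' k, by rw [Matrix.SpecialLinearGroup.coe_mul, h1, h1', diagonal_mul_diagonal],
    fun a => by simp only [h2, h2', add_dotProduct, zpow_add₀ hc], fun k hk => by simp only [h3 k hk, h3' k hk, one_mul]⟩

theorem IsTor.pow_card [Fintype F] {g : SpecialLinearGroup J F} {γ : Fin m → ℤ} {c : F} (hc : c ≠ 0) (h : IsTor ι g γ c) :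
    g ^ (Fintype.card F - 1) = 1 := by
  have h1 : IsTor ι (1 : SpecialLinearGroup J F) γ 1 := ⟨fun _ => 1, by simp, by simp, fun _ _ => rfl⟩
  have h2 : ∀ k : ℕ, IsTor ι (g ^ k) γ (c ^ k) := fun k => by
    induction k with
    | zero => simpa using h1
    | succ k ih => rw [pow_succ, pow_succ]; exact ih.mul h
  exact (h2 _).unique (FiniteField.pow_card_sub_one_eq_one c hc ▸ h1)

theorem exists_tor_md (he : e * e = 1) (h : Dist a b) {c : F} (hc : c ≠ 0) : ∃ g, IsTor ι g (eps a + eps b) c ∧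
    ∀ K : Subgroup _, Fu K (md ι e a b) → Fu K (md ι e a.swap b.swap) → g ∈ K := by
  have h3 := h.symm.swap.symm.swap.symm.2
  refine ⟨_, isTor_hMid he h.1 h.2 h3 hc, fun K h1 h2 => ?_⟩
  replace h2 := fu_md_symm he h2
  rw [← md_eq, ← md_eq]
  exact mul_mem (mul_mem (mul_mem (h1 _) (h2 _)) (h1 _)) (mul_mem (mul_mem (h1 _) (h2 _)) (h1 _))

variable (ι e K) in
/-- `K` contains a monomial matrix inducing `π` -/
def MI (π : sperm m) : Prop :=
  ∃ g ∈ K, ∃ π' l, Mono ι e g π π' l ∧ ∀ k, (∀ a, ι a ≠ k) → π' k = k ∧ l k * l k = 1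

theorem MI.exists_gen (h : MI ι e K π) : ∃ g ∈ K, ∀ K' : Subgroup _, g ∈ K' → MI ι e K' π :=
  let ⟨g, hg, h⟩ := h
  ⟨g, hg, fun _ hg' => ⟨g, hg', h⟩⟩

theorem MI.mul (he : e * e = 1) (h : MI ι e K π) (h' : MI ι e K ρ) : MI ι e K (π * ρ) := by
  obtain ⟨g, hg, π', l, h, h1⟩ := h
  obtain ⟨g', hg', ρ', l', h', h1'⟩ := h'
  refine ⟨_, mul_mem hg hg', _, _, ⟨h.mono.mul h'.mono, fun a => by rw [Equiv.Perm.mul_apply, h'.perm, h.perm]; rfl,
    fun a => ?_⟩, fun k hk => by simp [h1 k hk, h1' k hk, mul_mul_mul_comm (l k)]⟩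
  rw [h'.perm, h'.perm, ρ.2, mul_mul_mul_comm, h.iso, h'.iso, Subgroup.coe_mul, Equiv.Perm.mul_apply]
  linear_combination eta e a * eta e (π.1 (ρ.1 a)) * eta_sq he (ρ.1 a)

theorem MI.cj_md (he : e * e = 1) (h : MI ι e K π) (a b : II m) : Cj K (md ι e a b) (md ι e (π.1 a) (π.1 b)) := by
  obtain ⟨g, hg, π', l, h, -⟩ := h
  refine ⟨g, hg, _, mul_ne_zero (h.ne_zero he a) (inv_ne_zero (h.ne_zero he b.swap)), fun t => ?_⟩
  by_cases h' : a ≠ b.swap
  · have h'' : π.1 a ≠ (π.1 b).swap := by rw [← π.2]; exact π.1.injective.ne h'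
    rw [md_eq h', md_eq h'', h.conj_mid he]
  · rw [not_not.1 h', π.2]; simp [md]

theorem MI.cj_endC (he : e * e = 1) (h : MI ι e K π) (a : II m) : Cj K (endC ι a) (endC ι (π.1 a)) :=
  let ⟨g, hg, _, _, h, _⟩ := h
  ⟨g, hg, _, mul_ne_zero (h.ne_zero he a) (inv_ne_zero (h.ne_zero he a.swap)), h.conj_endC he a⟩

theorem MI.cj_endB (h : MI ι 1 K π) {z : J} (hz : ∀ a, ι a ≠ z) (a : II m) :
    Cj K (endB ι hz a) (endB ι hz (π.1 a)) :=
  let ⟨g, hg, _, _, h, h1⟩ := h
  ⟨g, hg, _, mul_ne_zero (left_ne_zero_of_mul_eq_one (h1 z hz).2) (h.ne_zero (mul_one 1) a),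
    h.conj_endB hz (h1 z hz).1 (h1 z hz).2 a⟩

theorem mi_reflM (he : e * e = 1) (hK : ∀ r t, xM ι e r t ∈ K) (r : MidR m) : MI ι e K (reflM r) :=
  ⟨_, mul_mem (mul_mem (hK r _) (hK (negM r) _)) (hK r _), _, _, mono_nMid he r (negM r).ne_swap one_ne_zero,
    fun k hk => by simp [lamM, Equiv.swap_apply_def, fun x => (hk x).symm]⟩

theorem mi_ppS (he : e * e = 1) (hK : ∀ r t, xM ι e r t ∈ K) (w : Equiv.Perm (Fin m)) : MI ι e K (ppS w) := by
  induction w using Equiv.Perm.swap_induction_on with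
  | one => exact ⟨1, one_mem _, 1, fun _ => 1, ⟨fun a b => one_apply, fun _ => by simp,
      fun a => by simp [eta_sq he]⟩, by simp⟩
  | swap_mul w i j hij ih =>
    rw [map_mul]
    refine MI.mul he ?_ ih
    convert mi_reflM he hK ⟨(inl i, inr j), by have := Fin.val_ne_of_ne hij; simp; omega⟩
    ext (a | a) <;> simp [reflM, Equiv.swap_apply_def] <;> split_ifs <;> simp_all

theorem mi_reflE_C (hK : ∀ a t, endC ι a t ∈ K) (a : II m) : MI ι (-1) K (reflE a) :=
  ⟨_, mul_mem (mul_mem (hK _ _) (hK _ _)) (hK _ _), _, _, mono_nC a one_ne_zero,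
    fun k hk => by simp [nCoef, Equiv.swap_apply_def, fun x => (hk x).symm]⟩

theorem mi_reflE_B {z : J} (hz : ∀ a, ι a ≠ z) (hK : ∀ a t, endB ι hz a t ∈ K) (a : II m) : MI ι 1 K (reflE a) :=
  ⟨_, mul_mem (mul_mem (hK _ _) (hK _ _)) (hK _ _), _, _, mono_nB hz a one_ne_zero,
    fun k hk => by simp [lamB, Equiv.swap_apply_def, fun x => (hk x).symm]; split_ifs <;> simp⟩

/-- a signed permutation acting as a negative cycle on the first `k + 1` planes -/
structure Cox (π : sperm m) (k : ℕ) : Prop where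
  succ : ∀ i j : Fin m, j.val = i.val + 1 → j.val ≤ k → π.1 (inl i) = inl j
  last : ∀ i j : Fin m, i.val = k → j.val = 0 → π.1 (inl i) = inr j
  rest : ∀ i : Fin m, k < i.val → π.1 (inl i) = inr i

theorem cox_BC (n : ℕ) : Cox (ppS (finRotate (n + 1)) * reflE (inl (Fin.last n))) n where
  succ i j h1 h2 := by
    have : i ≠ Fin.last n := fun e => by rw [e, Fin.val_last] at h1; omega
    simp [reflE, Equiv.swap_apply_def, this, Fin.ext_iff, h1, Fin.val_add_one]
  last i j h1 h2 := by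
    obtain rfl : i = Fin.last n := Fin.ext h1
    simp [reflE, Fin.ext_iff, h2]
  rest i h := by omega

theorem cox_D (n : ℕ) : Cox (ppS (finRotate (n + 2)) *
    reflM ⟨(inl (Fin.last n).castSucc, inl (Fin.last _)), by simp; omega⟩) n where
  succ i j h1 h2 := by
    have h3 : i ≠ Fin.last _ := fun e => by rw [e, Fin.val_last] at h1; omega
    have h4 : i ≠ (Fin.last n).castSucc := fun e => by rw [e, Fin.val_castSucc, Fin.val_last] at h1; omega
    simp [reflM, Equiv.swap_apply_def, h3, h4, Fin.ext_iff, h1, Fin.val_add_one]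
  last i j h1 h2 := by
    obtain rfl : i = (Fin.last n).castSucc := Fin.ext h1
    simp [reflM, Equiv.swap_apply_def, Fin.ext_iff, h2]
  rest i h := by
    obtain rfl : i = Fin.last _ := Fin.ext (by have := i.2; simp; omega)
    simp [reflM, Equiv.swap_apply_def, Fin.ext_iff]

theorem sperm_inr (π : sperm m) (i : Fin m) : π.1 (inr i) = (π.1 (inl i)).swap := π.2 (inl i)

theorem Cox.trans {k : ℕ} (h : Cox π k) (hk : k < m) {P : II m → Prop} (hP : ∀ a, P a ↔ P (π.1 a)) {a₀ : II m}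
    (h0 : (und a₀).val ≤ k) (h1 : P a₀) (a : II m) (ha : (und a).val ≤ k) : P a := by
  have h2 : ∀ i (hi : i ≤ k), (P (inl ⟨i, by omega⟩) ↔ P (inl ⟨0, by omega⟩)) ∧
      (P (inr ⟨i, by omega⟩) ↔ P (inr ⟨0, by omega⟩)) := fun i => by
    induction i with
    | zero => simp
    | succ i ih =>
      intro hi
      rw [← (ih (by omega)).1, ← (ih (by omega)).2, hP (inl ⟨i, _⟩), hP (inr ⟨i, _⟩), sperm_inr,
        h.succ _ ⟨i + 1, by omega⟩ rfl hi]
      exact ⟨Iff.rfl, Iff.rfl⟩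
  have h3 : P (inr ⟨0, by omega⟩) ↔ P (inl ⟨0, by omega⟩) := by
    rw [← (h2 k le_rfl).1, hP (inl _), h.last _ ⟨0, by omega⟩ rfl rfl]
  have h4 : ∀ a, (und a).val ≤ k → (P a ↔ P (inl ⟨0, by omega⟩)) := by
    rintro (i | i) hi
    exacts [(h2 i hi).1, (h2 i hi).2.trans h3]
  exact (h4 a ha).2 ((h4 a₀ h0).1 h1)

theorem Cox.und_le {k : ℕ} (h : Cox π k) (hk : k < m) (hk' : 0 < k) (ha : (und a).val ≤ k) :
    (und (π.1 a)).val ≤ k ∧ und a ≠ und (π.1 a) := by
  have : ∀ i : Fin m, i.val ≤ k → (und (π.1 (inl i))).val ≤ k ∧ i ≠ und (π.1 (inl i)) := fun i hi => by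
    rcases hi.eq_or_lt with e | e
    · rw [h.last i ⟨0, by omega⟩ e rfl]; simp [Fin.ext_iff]; omega
    · rw [h.succ i ⟨i + 1, by omega⟩ rfl e]; simp [Fin.ext_iff]; omega
  rcases a with i | i
  exacts [this i ha, by simpa [sperm_inr] using this i ha]

theorem Cox.simple {k : ℕ} (he : e * e = 1) (h : Cox π k) (hK : ∀ a, (und a).val ≤ k → Fu K (md ι e a (π.1 a).swap))
    {i : ℕ} (hi : i + 1 < m) (hk : i + 1 ≤ k) : Fu K (xM ι e (midS i hi)) ∧ Fu K (xM ι e (negM (midS i hi))) := by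
  have h1 := hK (inl ⟨i, by omega⟩) (by simp; omega)
  have h2 := fu_md_symm he (hK (inr ⟨i, by omega⟩) (by simp; omega))
  rw [sperm_inr] at h2
  rw [h.succ _ ⟨i + 1, hi⟩ rfl hk] at h1 h2
  exact ⟨fu_xM h1, fu_xM h2⟩

end CfsgLib.TwoGen
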