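import Mathlib
import Cfsg.Agent.Lib.TwoGen.Cox

/-!
The finite groups of types `B`, `C`, `D` are generated by two elements.
-/

set_option autoImplicit false

namespace CfsgLib.TwoGen

open CfsgLib.ClPres CfsgLib.ClSys CfsgLib.RGD Subgroup Function Matrix Matrix.SpecialLinearGroup Sum

variable {n : ℕ} {F : Type*} [Field F] {J : Type*} [Fintype J] [DecidableEq J]

theorem two_eq_zero_of_card [Fintype F] (h : ¬ 2 < Fintype.card F) : (2 : F) = 0 := by
  have := FiniteField.cast_card_eq_zero F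
  rwa [le_antisymm (not_lt.1 h) Fintype.one_lt_card] at this

theorem coprime_three (h : (2 : F) = 0) : (ringChar F).Coprime 3 := by
  rw [CharP.ringChar_of_prime_eq_zero Nat.prime_two h]; norm_num

theorem mem_of_conj_tor {G : Type*} [Group G] {K : Subgroup G} {x : F → G} (hx : IsAdd x) {h : G} {c : F} (hc : c ≠ 1)
    (ha : Acts h x c) (h1 : h ∈ K) (h2 : x 1 * h * (x 1)⁻¹ ∈ K) : Pt K x := by
  refine ⟨1 - c, sub_ne_zero.2 hc.symm, ?_⟩
  rw [sub_eq_add_neg, hx, ← mul_neg_one, ← ha, hx.neg, ← mul_assoc, ← mul_assoc]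
  exact mul_mem h2 (inv_mem h1)

theorem sperm_swap {m : ℕ} (π : sperm m) (a : II m) : π.1 a.swap = (π.1 a).swap := π.2 a

section BC

variable {ι : II (n + 2) ↪ J} {e : F} {K : Subgroup (SpecialLinearGroup J F)} {π : sperm (n + 2)}

theorem und_le (a : II (n + 2)) : (und a).val ≤ n + 1 := Nat.lt_succ_iff.1 (und a).2

theorem le_of_BC {k : ℤ} {hk : k = 1 ∨ k = 2} (S : StSys (rootBC (n + 2) hk) F (SpecialLinearGroup J F))
    (he : e * e = 1) (hS : ∀ r, S.x (inl r) = xM ι e r) (h : Cox π (n + 1)) (h1 : ∀ a, Fu K (md ι e a (π.1 a).swap))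
    (h2 : ∀ a, Fu K (S.x (inr a))) : S.grp ≤ K := grp_le_of_simple S fun j => by
  rw [rootBC_neg, rootBC_simple, simpleBC]
  split_ifs with hj
  · rw [Sum.map_inl, hS, hS]
    exact h.simple he (fun a _ => h1 a) hj (by omega)
  · exact ⟨h2 _, h2 _⟩

theorem genBy_sysB [Finite F] (h2 : (2 : F) ≠ 0) {z : J} (hz : ∀ a, ι a ≠ z) : GenBy (sysB F hz).grp 2 := by
  have := Fintype.ofFinite F
  obtain ⟨ζ, h0, hζ⟩ := exists_generator (F := F)
  have hB : ∀ a t, endB ι hz a t ∈ (sysB F hz).grp := fun a t => endB_eq_xB hz a t ▸ (sysB F hz).x_mem_grp (inr a) _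
  obtain ⟨w, hw, hw'⟩ := ((mi_ppS (mul_one 1) (fun r => (sysB F hz).x_mem_grp (inl r)) (finRotate _)).mul (mul_one 1)
    (mi_reflE_B hz hB (inl (Fin.last _)))).exists_gen
  have hc := cox_BC (n + 1)
  obtain ⟨h, ht, hh⟩ : ∃ h ∈ {h | IsTor ι h _ ζ}, h ∈ (sysB F hz).grp := ⟨_, isTor_hB hz (inl 0) h0 (mul_one 1),
    mul_mem (mul_mem (mul_mem (hB _ _) (hB _ _)) (hB _ _)) (mul_mem (mul_mem (hB _ _) (hB _ _)) (hB _ _))⟩
  refine genBy_of_forall hw (mul_mem (hB (inl 1) 1) hh) fun K h1 h3 => ?_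
  obtain ⟨h4, h5⟩ := mem_of_mul_mem (acts_one_iff.1 (fun t => by
    simpa [eps_dot', two_smul] using ht.conj_endB h0 hz (inl 1) t) 1).symm (IsAdd.pow_ringChar (endB_add ι hz _) 1)
    (IsTor.pow_card h0 ht) coprime_ringChar h3
  have h6 := Pt.fu hζ (endB_add ι hz _) (hc.trans (by omega) (fun a => ((hw' K h1).cj_endB hz a).pt) (und_le _)
    ⟨1, one_ne_zero, h4⟩ (inl 0) (und_le _)) h5 (ht.conj_endB h0 hz _) (Or.inr (by simp [eps_dot', smul_dotProduct, -zsmul_eq_mul]))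
  have h7 := fun a => hc.trans (by omega) (fun a => ((hw' K h1).cj_endB hz a).fu) (und_le _) h6 a (und_le _)
  refine le_of_BC (sysB F hz) (mul_one 1) (fun _ => rfl) hc (fun a t => ?_) fun a t => h7 a _
  have hd := (dist_iff_und.2 (hc.und_le (by omega) (by omega) (und_le a)).2).swap
  have := mem_of_chain (endB_chain ι hz hd.2 hd.1 (-(t / 2)) 1) (h7 _ _) (h7 _ _)
  rwa [← md_eq, show -(2 * -(t / 2) * 1) = t by field_simp] at this

theorem genBy_sysC [Fintype F] (hF : n = 0 → 2 < Fintype.card F) : GenBy (sysC F ι).grp 2 := by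
  obtain ⟨ζ, h0, hζ⟩ := exists_generator (F := F)
  have hM := fun r => (sysC F ι).x_mem_grp (inl r)
  have hC := fun a => (sysC F ι).x_mem_grp (inr a)
  have hm : ∀ {a b}, Dist a b → ∀ t, md ι (-1) a b t ∈ (sysC F ι).grp := fun h t => by
    rw [md_eq h.2]; exact mid_mem_of_xM neg_one_sq' hM h.1 _ t
  obtain ⟨w, hw, hw'⟩ := ((mi_ppS neg_one_sq' hM (finRotate _)).mul neg_one_sq'
    (mi_reflE_C hC (inl (Fin.last _)))).exists_gen
  have hc := cox_BC (n + 1)
  have fin : ∀ K : Subgroup _, w ∈ K → (∀ a, Fu K (endC ι a)) → Fu K (md ι (-1) (inl 0) (inr 1)) → (sysC F ι).grp ≤ K :=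
    fun K h1 h2 h3 => le_of_BC (sysC F ι) neg_one_sq' (fun _ => rfl) hc (fun a => hc.trans (by omega)
      (P := fun a => Fu K (md ι (-1) a (_ : II _).swap)) (fun a => by rw [((hw' K h1).cj_md neg_one_sq' _ _).fu, sperm_swap])
      (und_le (inl 0)) (by rwa [hc.succ 0 1 rfl (by simp)]) a (und_le a)) h2
  by_cases hq : 2 < Fintype.card F
  · obtain ⟨h, ht, hh⟩ : ∃ h ∈ {h | IsTor ι h _ ζ}, ∀ K : Subgroup _, (∀ a, Fu K (endC ι a)) → h ∈ K :=
      ⟨_, isTor_hC (inl 0) h0, fun K hC =>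
        mul_mem (mul_mem (mul_mem (hC _ _) (hC _ _)) (hC _ _)) (mul_mem (mul_mem (hC _ _) (hC _ _)) (hC _ _))⟩
    have hx := hm (dist_lr (zero_ne_one' (Fin (n + 2)))) 1
    refine genBy_of_forall hw (mul_mem (hC (inr 1) 1) (mul_mem (mul_mem hx (hh _ hC)) (inv_mem hx))) fun K h1 h3 => ?_
    have c1 : ∀ a t, a ≠ inr 0 → a ≠ inl 1 → Commute (md ι (-1 : F) (inl 0) (inr 1) 1) (endC ι a t) := fun a t e1 e2 => by
      rw [md_eq (dist_lr (zero_ne_one' (Fin (n + 2)))).2]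
      exact mid_endC_commute ι _ (fun e => e1 (eq_swap_comm.1 e)) (fun e => e2 (eq_swap_comm.1 e)) _ _
    have c2 := c1 (inr 1) 1 (by simp) (by simp)
    obtain ⟨h4, h5⟩ := mem_of_mul_mem ((c2.mul_left (acts_one_iff.1 (fun t => by
      simpa [eps_dot', two_smul, -zsmul_eq_mul] using ht.conj_endC h0 (inr 1) t) 1)).mul_left c2.inv_left).symm (IsAdd.pow_ringChar (endC_add ι _) 1)
      (by rw [conj_pow, IsTor.pow_card h0 ht, mul_one, mul_inv_cancel]) coprime_ringChar h3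
    have h6 := Pt.fu hζ (endC_add ι _) (hc.trans (by omega) (fun a => ((hw' K h1).cj_endC neg_one_sq' a).pt) (und_le _)
      ⟨1, one_ne_zero, h4⟩ (inl 0) (und_le _)) h5 (c := ζ ^ 2) (by
        have c3 := acts_one_iff.2 fun t => c1 (inl 0) t (by simp) (by simp)
        exact ((c3.mul (ht.conj_endC h0 _)).mul (c3.inv one_ne_zero)).congr rfl (by simp [eps_dot', -zsmul_eq_mul])) (Or.inr rfl)
    have h7 := fun a => hc.trans (by omega) (fun a => ((hw' K h1).cj_endC neg_one_sq' a).fu) (und_le _) h6 a (und_le _)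
    have a1 := (IsTor.acts_md ht h0 neg_one_sq' (inl 0) (inr 1)).congr rfl (show _ = ζ by simp [eps_dot'])
    exact fin K h1 h7 (Pt.fu hζ (isAdd_md _ _) (mem_of_conj_tor (isAdd_md _ _)
      (pow_one ζ ▸ gen_sq_ne_one hζ one_pos hq) a1 (hh K h7) h5) (hh K h7) a1 (Or.inl rfl))
  · obtain ⟨n, rfl⟩ : ∃ k, n = k + 1 := ⟨n - 1, by by_contra; exact hq (hF (by omega))⟩
    have h2 := two_eq_zero_of_card hq
    have h12 : (1 : Fin (n + 3)) ≠ 2 := fun e => by cases e
    have h02 : (0 : Fin (n + 3)) ≠ 2 := fun e => by cases e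
    have d1 := dist_ll (zero_ne_one' (Fin (n + 3)))
    have d2 : Dist _ _ := d1.symm.swap.symm.swap.symm
    refine genBy_of_forall hw (mul_mem (hC (inl 2) 1) (mul_mem (hm d1 1) (hm d2 1))) fun K h1 h3 => ?_
    obtain ⟨h4, h5⟩ := mem_of_mul_mem (Commute.mul_left
      (by rw [md_eq d1.2]; exact mid_endC_commute ι _ (by simp) (by simp) _ _)
      (by rw [md_eq d2.2]; exact mid_endC_commute ι _ (by simp [h12]) (by simp [h02]) _ _)).symm
      (IsAdd.pow_ringChar (endC_add ι _) 1) (md_cube neg_one_sq' h2 d1) (coprime_three h2) h3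
    have h7 := fun a => Pt.fu_of_le_three (by omega) (endC_add ι _) (hc.trans (by omega)
      (fun a => ((hw' K h1).cj_endC neg_one_sq' a).pt) (und_le _) ⟨1, one_ne_zero, h4⟩ a (und_le _))
    refine fin K h1 h7 (Pt.fu_of_le_three (by omega) (isAdd_md _ _) ⟨1 * 1, by simp, ?_⟩)
    have := mul_mem (mul_mem h5 (h7 (inr 1) 1)) (inv_mem h5)
    rw [← conj_mul', md_eq d2.2, (mid_endC_commute ι _ (by simp) (by simp) _ _).mul_inv_cancel, md_eq d1.2,
      show inr 1 = (inl 1 : II _).swap from rfl, mid_endC_chain ι _ d1.swap.2, ← mul_assoc, mul_inv_cancel_right,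
      K.mul_mem_cancel_right (h7 _ _), K.mul_mem_cancel_right (h7 _ _), ← md_eq] at this
    exact this

end BC

section D

variable {ι : II (n + 4) ↪ J} {K : Subgroup (SpecialLinearGroup J F)} {π : sperm (n + 4)}

theorem le_of_D (hc : Cox π (n + 2)) (hπ : MI ι 1 K π) (h1 : Fu K (md ι 1 (inl 0) (inr 1))) {a₀ : II (n + 4)}
    (h0 : (und a₀).val ≤ n + 2) (h2 : Fu K (md ι 1 a₀ (inr (Fin.last _)))) : (sysD F ι (by omega)).grp ≤ K := by
  have h3 := fun a => hc.trans (by omega) (P := fun a => Fu K (md ι 1 a (π.1 a).swap))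
    (fun a => by rw [(hπ.cj_md (mul_one 1) _ _).fu, sperm_swap]) (a₀ := inl 0) (by simp)
    (by rwa [hc.succ 0 1 rfl (by simp)]) a
  have e1 := hc.rest (Fin.last _) (by simp)
  have e2 : π.1 (inr (Fin.last _)) = inl (Fin.last _) := by rw [sperm_inr, e1]; rfl
  have h4 := hc.trans (by omega) (P := fun a => Fu K (md ι 1 a (inl (Fin.last _))) ∧ Fu K (md ι 1 a (inr (Fin.last _))))
    (fun a => by rw [(hπ.cj_md (mul_one 1) a _).fu, (hπ.cj_md (mul_one 1) a _).fu, e1, e2, and_comm]) h0 ⟨by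
      obtain ⟨e3, e4⟩ := hc.und_le (by omega) (by omega) h0
      refine fu_md_chain (mul_one 1) (dist_iff_und.2 e4).swap (dist_iff_und.2 fun e => ?_) (dist_iff_und.2 fun e => ?_).2
        (h3 _ h0) (by rwa [Sum.swap_swap, ← e2, ← (hπ.cj_md (mul_one 1) _ _).fu])
      · rw [und_swap] at e; rw [e] at e3; simp at e3
      · rw [e] at h0; simp at h0, h2⟩
  refine grp_le_of_simple _ fun j => ?_
  rw [rootD_neg, rootD_simple, simpleD, sysD_x]
  split_ifs with hj
  · by_cases hj' : j.val + 1 ≤ n + 2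
    · exact hc.simple (mul_one 1) h3 hj hj'
    · have e : (⟨j + 1, hj⟩ : Fin (n + 4)) = Fin.last _ := Fin.ext (by simp; omega)
      exact ⟨fu_xM (by simpa [midS, e] using (h4 (inl j) (by simp; omega)).2),
        fu_xM (by simpa [midS, negM, e] using fu_md_symm (mul_one 1) (h4 (inr j) (by simp; omega)).1)⟩
  · exact ⟨fu_xM (h4 _ le_rfl).1, fu_xM (fu_md_symm (mul_one 1) (h4 _ le_rfl).2)⟩

theorem genBy_sysD [Fintype F] : GenBy (sysD F ι (by omega)).grp 2 := by
  obtain ⟨ζ, h0, hζ⟩ := exists_generator (F := F)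
  have hM := (sysD F ι (by omega)).x_mem_grp
  have hm : ∀ {a b}, Dist a b → ∀ t, md ι 1 a b t ∈ (sysD F ι (by omega)).grp := fun h t => by
    rw [md_eq h.2]; exact mid_mem_of_xM (mul_one 1) hM h.1 _ t
  obtain ⟨π, hc, w, hw, hw'⟩ : ∃ π, Cox π (n + 2) ∧ ∃ w ∈ (sysD F ι (by omega)).grp, ∀ K : Subgroup _, w ∈ K → MI ι 1 K π :=
    ⟨_, cox_D _, ((mi_ppS (mul_one 1) hM _).mul (mul_one 1) (mi_reflM (mul_one 1) hM _)).exists_gen⟩
  have tr := fun K (h1 : w ∈ K) => (⟨hc.trans (by omega) (P := fun a => Pt K (md ι 1 a (_ : II _).swap))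
    (fun a => by rw [((hw' K h1).cj_md (mul_one 1) _ _).pt, sperm_swap]) (a₀ := inl 0) (by simp),
    fun a₀ => hc.trans (by omega) (P := fun a => Fu K (md ι 1 a (_ : II _).swap))
    (fun a => by rw [((hw' K h1).cj_md (mul_one 1) _ _).fu, sperm_swap]) (a₀ := a₀)⟩ : _ ∧ _)
  have s0 := hc.succ 0 1 rfl (by simp)
  have s1 := hc.succ 1 2 rfl (Nat.le_add_left 2 n)
  have h01 := zero_ne_one' (Fin (n + 4))
  have h12 : (1 : Fin (n + 4)) ≠ 2 := fun e => by cases e
  have h02 : (0 : Fin (n + 4)) ≠ 2 := fun e => by cases e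
  have h0l : (0 : Fin (n + 4)) ≠ Fin.last _ := fun e => by cases e
  have h1l : (1 : Fin (n + 4)) ≠ Fin.last _ := fun e => by cases e
  have h2l : (2 : Fin (n + 4)) ≠ Fin.last _ := fun e => by cases e
  by_cases hq : 2 < Fintype.card F
  · obtain ⟨p, hp⟩ : ∃ p : Fin (n + 4), p.val = n + 2 := ⟨⟨_, by omega⟩, rfl⟩
    have hp0 : p ≠ 0 := fun e => by subst e; cases hp
    have hp1 : p ≠ 1 := fun e => by subst e; cases hp
    have hpl : p ≠ Fin.last _ := fun e => by subst e; simp at hp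
    have sp := hc.last p 0 hp rfl
    obtain ⟨g, t1, m1⟩ := exists_tor_md (ι := ι) (mul_one 1) (dist_lr h12) h0
    obtain ⟨g', t2, m2⟩ := exists_tor_md (ι := ι) (mul_one 1) (dist_ll hp0) h0
    have ht := IsTor.add h0 t1 t2
    have hx := hm (dist_lr h0l) 1
    refine genBy_of_forall hw (mul_mem (hm (dist_lr h01) 1) (mul_mem (mul_mem hx (mul_mem
      (m1 _ (hm (dist_lr h12)) (hm (dist_rl h12))) (m2 _ (hm (dist_ll hp0)) (hm (dist_rl hp0).swap)))) (inv_mem hx)))
      fun K h1 h3 => ?_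
    have c2 : Commute (md ι (1 : F) (inl 0) (inr (Fin.last _)) 1) (md ι 1 (inl 0) (inr 1) 1) :=
      md_commute (by simp) (by simp) (by simp) (by simp) _ _
    obtain ⟨h4, h5⟩ := mem_of_mul_mem ((c2.mul_left (acts_one_iff.1 ((IsTor.acts_md ht h0 (mul_one 1) _ _).congr rfl (by
      simp [eps_dot', *, h02.symm, h12.symm])) 1)).mul_left c2.inv_left).symm (IsAdd.pow_ringChar (isAdd_md _ _) 1)
      (by rw [conj_pow, IsTor.pow_card h0 ht, mul_one, mul_inv_cancel]) coprime_ringChar h3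
    have c3 := acts_one_iff.2 fun t => (md_commute (by simp) (by simp [h02]) (by simp [h1l.symm]) (by simp) 1 t :
      Commute (md ι (1 : F) (inl 0) (inr (Fin.last (n + 3))) 1) (md ι 1 (inl 1) (inr 2) t))
    have h6 := (tr K h1).2 (inl 1) (by simp) (s1 ▸ Pt.fu hζ (isAdd_md _ _) (by
      simpa only [s1, swap_inl, swap_inr] using (tr K h1).1 ⟨1, one_ne_zero, s0 ▸ h4⟩ (inl 1) (by simp)) h5
      ((c3.mul (IsTor.acts_md ht h0 (mul_one 1) _ _)).mul (c3.inv one_ne_zero)) (by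
        by_cases e : p = 2 <;> simp [eps_dot', *, h12.symm]))
    have h7 : g * g' ∈ K := mul_mem (m1 _ (by simpa only [s1, swap_inl, swap_inr] using h6 (inl 1) (by simp))
      (by simpa only [sperm_inr, s1, swap_inl, swap_inr] using h6 (inr 1) (by simp)))
      (m2 _ (by simpa only [sp, swap_inl, swap_inr] using h6 (inl p) hp.le) (by simpa only [sperm_inr, sp, swap_inl, swap_inr] using h6 (inr p) hp.le))
    have a1 := (IsTor.acts_md ht h0 (mul_one 1) (inl 0) (inr (Fin.last _))).congr rfl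
      (show _ = ζ by simp [eps_dot', *, h02.symm])
    exact le_of_D hc (hw' K h1) (by simpa only [s0, swap_inl, swap_inr] using h6 (inl 0) (by simp)) (a₀ := inl 0) (by simp)
      (Pt.fu hζ (isAdd_md _ _) (mem_of_conj_tor (isAdd_md _ _) (pow_one ζ ▸ gen_sq_ne_one hζ one_pos hq) a1 h7 h5)
        h7 a1 (Or.inl rfl))
  · have h2 := two_eq_zero_of_card hq
    have d1 := dist_lr h2l
    refine genBy_of_forall hw (mul_mem (hm (dist_lr h01) 1) (mul_mem (hm d1 1) (hm d1.symm.swap.symm.swap.symm 1)))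
      fun K h1 h3 => ?_
    obtain ⟨h4, h5⟩ := mem_of_mul_mem (Commute.mul_right (md_commute (by simp) (by simp) (by simp [h12]) (by simp) _ _)
      (md_commute (by simp) (by simp [h02]) (by simp [h1l]) (by simp) _ _))
      (IsAdd.pow_ringChar (isAdd_md _ _) 1) (md_cube (mul_one 1) h2 d1) (coprime_three h2) h3
    have h6 : Fu K (md ι 1 (inl 1) (inr 2)) := Pt.fu_of_le_three (by omega) (isAdd_md _ _) (by
      simpa only [s1, swap_inl, swap_inr] using (tr K h1).1 ⟨1, one_ne_zero, s0 ▸ h4⟩ (inl 1) (by simp))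
    refine le_of_D hc (hw' K h1) (Pt.fu_of_le_three (by omega) (isAdd_md _ _) ⟨1, one_ne_zero, h4⟩) (a₀ := inl 1) (by simp)
      (Pt.fu_of_le_three (by omega) (isAdd_md _ _) ⟨1 * 1, by simp, ?_⟩)
    have := mul_mem (h6 1) (inv_mem (mul_mem (mul_mem h5 (h6 1)) (inv_mem h5)))
    rw [← conj_mul', (md_commute (by simp) (by simp [h2l.symm]) (by simp [h12.symm]) (by simp) _ _).mul_inv_cancel] at this
    rw [← comm_eq_of (md_chain (mul_one 1) (dist_lr h12) d1.symm.swap.symm (by simp [h1l]) 1 1)]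
    simpa [mul_assoc] using this

end D

theorem genBy_of_toGL {ι κ : Type} [Fintype κ] [DecidableEq κ] {Φ : RootSys ι κ} {G : Type*} [Group G]
    {S : StSys Φ F G} {S₀ : StSys Φ F (SpecialLinearGroup J F)} {ψ : G →* GL J F} (hψ : Injective ψ)
    (h : ∀ r t, ψ (S.x r t) = toGL (S₀.x r t)) (hS : S.grp = ⊤) {s : ℕ} (h₀ : GenBy S₀.grp s) :
    GenBy (⊤ : Subgroup G) s := by
  have e : ψ.range = S₀.grp.map toGL := by
    rw [MonoidHom.range_eq_map, ← hS]
    exact (Stein.map_UU (S₀ := mapSys S₀ toGL) _ h _).trans (Stein.map_UU toGL (fun _ _ => rfl) _).symm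
  have := (h₀.map toGL).comap hψ e.ge
  rwa [← e, MonoidHom.comap_range_self] at this

variable [Fintype F]

theorem genBy_sp (hn : 2 ≤ n) (hF : n = 2 → 2 < Fintype.card F) :
    GenBy (⊤ : Subgroup (symplecticGroup (Fin n) F)) 2 := by
  obtain ⟨n, rfl⟩ : ∃ k, n = k + 2 := ⟨n - 2, by omega⟩
  have := (genBy_sysC (n := n) (ι := iota _) fun h => hF (by omega)).comap spToSL_injective sysC_grp.le
  rwa [sysC_grp, MonoidHom.comap_range_self] at this

theorem genBy_omegaOdd (hn : 2 ≤ n) (h2 : (2 : F) ≠ 0) :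
    GenBy (⊤ : Subgroup (Cfsg.Omega F (Cfsg.quadFormOdd n F))) 2 := by
  obtain ⟨n, rfl⟩ : ∃ k, n = k + 2 := ⟨n - 2, by omega⟩
  exact genBy_of_toGL omegaToGL_injective (omegaOddSys_toGL (by omega) h2) (omegaOddSys_grp _ _) (genBy_sysB h2 _)

theorem genBy_omegaPlus (hn : 4 ≤ n) : GenBy (⊤ : Subgroup (Cfsg.Omega F (Cfsg.quadFormPlus n F))) 2 := by
  obtain ⟨n, rfl⟩ : ∃ k, n = k + 4 := ⟨n - 4, by omega⟩
  exact genBy_of_toGL omegaToGL_injective (omegaPlusSys_toGL (by omega) (by omega)) (omegaPlusSys_grp _ _) genBy_sysD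

end CfsgLib.TwoGen
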